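import Mathlib
import Cfsg.Agent.Base
import Cfsg.Agent.Lib.Suzuki.Structure

/-! Simple modules in characteristic two of a Suzuki group on which the elements of odd order act
without fixed points are natural. -/

set_option autoImplicit false
set_option linter.unusedSectionVars false
set_option linter.style.haveILetI false

namespace H32

open Subgroup H14.Sz
open Matrix hiding vec vec_zero

theorem exists_eigen {F E : Type*} [Field F] [Fintype F] [AddCommGroup E] [Module F E]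
    (A : Fˣ →* Module.End F E) (Y : Submodule F E) (hY : ∀ s, ∀ x ∈ Y, A s x ∈ Y) {e : E}
    (he : e ∈ Y) (h0 : e ≠ 0) :
    ∃ x ∈ Y, x ≠ 0 ∧ ∃ χ : Fˣ →* Fˣ, ∀ s, A s x = (χ s : F) • x := by
  classical
  let n := Fintype.card Fˣ
  let x : ℕ → E := fun N => ∑ s : Fˣ, ((s⁻¹ ^ N : Fˣ) : F) • A s e
  have hn : (n : F) = -1 := by
    rw [show n = Fintype.card F - 1 from Fintype.card_units F, Nat.cast_sub Fintype.card_pos,
      FiniteField.cast_card_eq_zero, Nat.cast_one, zero_sub]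
  have hsum : ∑ N ∈ Finset.range n, x N = -e := by
    simp only [x]
    rw [Finset.sum_comm, Finset.sum_eq_single 1]
    · simp [← Nat.cast_smul_eq_nsmul F, hn]
    · intro s _ hs
      rw [← Finset.sum_smul]
      have h1 : ((s⁻¹ : Fˣ) : F) - 1 ≠ 0 := fun e =>
        hs (inv_eq_one.1 (Units.ext (sub_eq_zero.1 e)))
      have h2 := geom_sum_mul ((s⁻¹ : Fˣ) : F) n
      rw [← Units.val_pow_eq_pow_val, pow_card_eq_one, Units.val_one, sub_self] at h2
      simp only [Units.val_pow_eq_pow_val]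
      rw [(mul_eq_zero.1 h2).resolve_right h1, zero_smul]
    · simp
  obtain ⟨N, -, hN⟩ := Finset.exists_ne_zero_of_sum_ne_zero (hsum ▸ neg_ne_zero.2 h0)
  refine ⟨x N, Y.sum_mem fun s _ => Y.smul_mem _ (hY s e he), hN, powMonoidHom N, fun t => ?_⟩
  simp only [x, map_sum, Finset.smul_sum, map_smul]
  refine Fintype.sum_equiv (Equiv.mulLeft t) _ _ fun s => ?_
  simp only [Equiv.coe_mulLeft]
  rw [map_mul, smul_smul, ← Units.val_mul, powMonoidHom_apply, ← mul_pow,
    _root_.mul_inv_rev, mul_comm s⁻¹, mul_inv_cancel_left]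
  rfl

theorem exists_fix_ne_zero {U E : Type*} [Group U] [AddCommGroup E] [Finite E]
    [DistribMulAction U E] (hU : IsPGroup 2 U) (h2 : ∀ x : E, x + x = 0) {e : E} (h0 : e ≠ 0) :
    ∃ x : E, x ≠ 0 ∧ ∀ u : U, u • x = x := by
  have : addOrderOf e = 2 := addOrderOf_eq_prime (by rw [two_smul, h2]) h0
  obtain ⟨b, hb, h⟩ := hU.exists_fixed_point_of_prime_dvd_card_of_fixed_point E
    (this ▸ addOrderOf_dvd_natCard e) (a := 0) fun u => smul_zero u
  exact ⟨b, h.symm, hb⟩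

/-- Non-trivial elements of odd order have no fixed points. -/
def OFpf (Γ W : Type*) [Group Γ] [AddCommGroup W] [DistribMulAction Γ W] : Prop :=
  ∀ s : Γ, s ≠ 1 → Odd (orderOf s) → ∀ w : W, s • w = w → w = 0

variable {Γ : Type*} [Group Γ] {F : Type*} [Field F] [Fintype F] {m : ℕ} [hz : SzF F m]
  (S : Model Γ F m) {W : Type*} [AddCommGroup W] [DistribMulAction Γ W]

local notation "θ" => th F

theorem sz_rel2 : S.w * S.u 0 1 * (S.w * S.u 0 1) = S.u 1 0 * (S.w * S.u 1 0) := by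
  have h2 : (1 : F) + 1 = 0 := CharTwo.add_self_eq_zero 1
  apply S.mat_injective
  simp only [map_mul, S.mat_u, S.mat_w]
  ext i j
  fin_cases i <;> fin_cases j <;> simp [uM, wM, Matrix.mul_apply, Fin.sum_univ_four, nrm_def, h2]

theorem sz_rel3 :
    S.w * S.u 0 1 * (S.u 1 0 * (S.w * S.u 1 0)) = S.u 1 1 * (S.w * S.u 1 1) := by
  have h2 : (1 : F) + 1 = 0 := CharTwo.add_self_eq_zero 1
  apply S.mat_injective
  simp only [map_mul, S.mat_u, S.mat_w]
  ext i j
  fin_cases i <;> fin_cases j <;> simp [uM, wM, Matrix.mul_apply, Fin.sum_univ_four, nrm_def, h2]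

theorem sz_rel4 : S.w * S.u 0 1 * (S.u 1 1 * (S.w * S.u 1 1)) = S.u 0 1 * S.w := by
  have h2 : (1 : F) + 1 = 0 := CharTwo.add_self_eq_zero 1
  apply S.mat_injective
  simp only [map_mul, S.mat_u, S.mat_w]
  ext i j
  fin_cases i <;> fin_cases j <;> simp [uM, wM, Matrix.mul_apply, Fin.sum_univ_four, nrm_def, h2]

theorem OFpf.five (h : OFpf Γ W) (v : W) : v + S.w • S.u 0 1 • v + S.u 1 0 • S.w • S.u 1 0 • v +
    S.u 1 1 • S.w • S.u 1 1 • v + S.u 0 1 • S.w • v = 0 := by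
  have r := sz_rel2 S
  have r3 := sz_rel3 S
  have r4 := sz_rel4 S
  have r5 : S.w * S.u 0 1 * (S.u 0 1 * S.w) = 1 := by
    rw [mul_assoc, ← mul_assoc (S.u 0 1), S.u_zero_sq, one_mul, S.w_mul_w]
  set t := S.w * S.u 0 1 with ht
  rw [← r] at r3
  rw [← r3] at r4
  rw [← r4] at r5
  have t1 : t ≠ 1 := fun e => S.w_not_mem_B (by
    rw [eq_inv_of_mul_eq_one_left e]; exact S.B.inv_mem (S.u_mem_B 0 1))
  haveI : Fact (Nat.Prime 5) := ⟨by norm_num⟩
  have t5 : orderOf t = 5 := orderOf_eq_prime (by rw [← r5]; simp [pow_succ, mul_assoc]) t1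
  simp only [← mul_smul]
  rw [← ht, ← r, ← r3, ← r4]
  refine h t t1 (by rw [t5]; decide) _ ?_
  simp only [smul_add, ← mul_smul]
  rw [r5, one_smul]
  abel

theorem OFpf.sum_h [DecidableEq F] (h : OFpf Γ W) (v : W) : ∑ k : Fˣ, S.h k • v = 0 := by
  obtain ⟨l, hl⟩ := exists_unit_ne_one F
  refine h (S.h l) (mt S.h_eq_one.1 hl) ((odd_q_sub_one F).of_dvd_nat (S.orderOf_h_dvd l)) _ ?_
  rw [Finset.smul_sum]
  exact Fintype.sum_equiv (Equiv.mulLeft l) _ _ fun k => by simp [mul_smul]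

/-- The lower left entry. -/
noncomputable def ll (g : Γ) : F := (S.mat g *ᵥ ![1, 0, 0, 0]) 3

theorem wM_three (y : Fin 4 → F) : (wM F *ᵥ y) 3 = y 0 := by
  simp [wM, mulVec, dotProduct, Fin.sum_univ_four]

theorem uM_three (a b : F) (y : Fin 4 → F) : (uM a b *ᵥ y) 3 = y 3 := by
  simp [uM, mulVec, dotProduct, Fin.sum_univ_four]

theorem uM_zero' (a b : F) (y : Fin 4 → F) :
    (uM a b *ᵥ y) 0 = y 0 + a * y 1 + (b + θ a * a) * y 2 + nrm a b * y 3 := by
  simp [uM, mulVec, dotProduct, Fin.sum_univ_four]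

theorem ll_B (a b : F) (k : Fˣ) : ll S (S.u a b * S.h k) = 0 := by
  rw [ll, map_mul, ← mulVec_mulVec, S.mat_u, uM_three, S.mat_h, hM_mulVec_e0]
  simp

theorem ll_bruhat (x y a b : F) (k : Fˣ) :
    ll S (S.u x y * S.w * (S.u a b * S.h k)) = rt (k : F) * k := by
  rw [ll, mul_assoc, map_mul, ← mulVec_mulVec, S.mat_u, uM_three, map_mul, ← mulVec_mulVec, S.mat_w,
    wM_three, map_mul, ← mulVec_mulVec, S.mat_h, hM_mulVec_e0, mulVec_smul, S.mat_u, uM_mulVec_e0]
  simp

theorem ll_wuw (a b : F) : ll S (S.w * (S.u a b * S.w)) = nrm a b := by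
  simp only [ll, map_mul, ← mulVec_mulVec, S.mat_u, S.mat_w, wM_three, wM_mulVec_e0, uM_mulVec]
  simp [vec_zero]

theorem ll_uw (a b : F) : ll S (S.u a b * S.w) = 1 := by
  simp only [ll, map_mul, ← mulVec_mulVec, S.mat_u, S.mat_w, uM_three, wM_mulVec_e0, vec_three]

theorem eq_zero_of_three {y : Fin 4 → F} (h : ∀ g, (S.mat g *ᵥ y) 3 = 0) : y = 0 := by
  have h3 : y 3 = 0 := by simpa using h 1
  have hu : ∀ a b, y 0 + a * y 1 + (b + θ a * a) * y 2 = 0 := fun a b => by
    have := h (S.w * S.u a b)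
    rwa [map_mul, ← mulVec_mulVec, S.mat_w, wM_three, S.mat_u, uM_zero', h3, mul_zero,
      add_zero] at this
  have h0 : y 0 = 0 := by simpa using hu 0 0
  have h2 : y 2 = 0 := by simpa [h0] using hu 0 1
  have h1 : y 1 = 0 := by simpa [h0, h2] using hu 1 0
  ext i
  fin_cases i <;> assumption

/-- The weight of the torus on the first basis vector. -/
noncomputable def nu : Fˣ ≃* Fˣ := MulEquiv.ofBijective
  (MonoidHom.mk' (fun k : Fˣ => Units.mk0 (rt (k : F)) (rt_ne_zero k.ne_zero) * k) fun k l => by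
    ext; simp [rt_mul, mul_mul_mul_comm])
  (Finite.injective_iff_bijective.1 fun k l e => by
    have e1 : rt (k : F) * k = rt (l : F) * l := congrArg Units.val e
    have : rt (k : F) = rt (l : F) := th_mul_self_injective (by rw [th_rt, th_rt, mul_comm, e1, mul_comm])
    exact Units.ext (by rw [← th_rt (k : F), this, th_rt]))

theorem coe_nu (k : Fˣ) : ((nu k : Fˣ) : F) = rt (k : F) * k := rfl

theorem span_vec (Y : AddSubgroup (Fin 4 → F)) (hv : ∀ a b c : F, c • vec a b ∈ Y)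
    (y : Fin 4 → F) : y ∈ Y := by
  have h0 : ∀ c : F, c • ![1, 0, 0, 0] ∈ Y := fun c => by
    obtain ⟨a, ha⟩ := exists_th_ne_self F
    obtain ⟨d, rfl⟩ : ∃ d, c = d * (θ a - a) := ⟨_, (div_mul_cancel₀ c (sub_ne_zero.2 ha)).symm⟩
    have := Y.add_mem (Y.sub_mem (hv 0 a d) (hv 0 1 (d * a))) (hv 0 0 (d * a - d))
    convert this using 1
    ext i
    fin_cases i <;> simp [vec, nrm_def]
    ring
  have := Y.add_mem (Y.add_mem (Y.add_mem (h0 (y 0 - y 1 - y 2)) (hv 0 1 (y 1))) (hv 1 0 (y 2)))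
    (hv 0 0 (y 3 - y 1 - y 2))
  convert this using 1
  ext i
  fin_cases i <;> simp [vec, nrm_def]
  ring

theorem span_e0 (Y : AddSubgroup (Fin 4 → F)) (hY : ∀ g, ∀ y ∈ Y, S.mat g *ᵥ y ∈ Y)
    (h0 : ∀ c : F, c • ![1, 0, 0, 0] ∈ Y) (y : Fin 4 → F) : y ∈ Y :=
  span_vec Y (fun a b c => by
    have := hY (S.u a b * S.w) _ (h0 c)
    rw [map_mul, ← mulVec_mulVec, S.mat_u, S.mat_w, mulVec_smul, mulVec_smul, wM_mulVec_e0,
      uM_mulVec] at this
    simpa using this) y

theorem span_e0' (Y : AddSubgroup (Fin 4 → F)) (hY : ∀ g, ∀ y ∈ Y, S.mat g *ᵥ y ∈ Y)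
    (h0 : ![1, 0, 0, 0] ∈ Y) (y : Fin 4 → F) : y ∈ Y := by
  refine span_e0 S Y hY (fun c => ?_) y
  rcases eq_or_ne c 0 with rfl | hc
  · rw [zero_smul]; exact Y.zero_mem
  obtain ⟨k, hk⟩ := (nu (F := F)).surjective (Units.mk0 c hc)
  have := hY (S.h k) _ h0
  rwa [S.mat_h, hM_mulVec_e0, ← coe_nu, hk] at this

/-- A simple module on which the elements of odd order act without fixed points is natural. -/
theorem OFpf.natural [Finite W] (h : OFpf Γ W) (h2 : ∀ w : W, w + w = 0) {e : W} (he : e ≠ 0)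
    (hirr : ∀ Y : AddSubgroup W, (∀ g : Γ, ∀ v ∈ Y, g • v ∈ Y) → Y = ⊥ ∨ Y = ⊤) :
    ∃ ρ : W →+ (Fin 4 → F), Function.Bijective ρ ∧ ∀ (g : Γ) (w : W), ρ (g • w) = S.mat g *ᵥ ρ w := by
  classical
  have hall : ∀ Y : AddSubgroup W, (∀ g : Γ, ∀ v ∈ Y, g • v ∈ Y) → ∀ v ∈ Y, v ≠ 0 → ∀ w, w ∈ Y :=
    fun Y hY v hv h0 w => by
      rcases hirr Y hY with rfl | rfl
      exacts [absurd hv h0, trivial]
  obtain ⟨v, hv0, hv⟩ := exists_fix_ne_zero S.isPGroup_U h2 he
  have hv : ∀ a b, S.u a b • v = v := fun a b => hv ⟨_, S.u_mem_U a b⟩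
  -- an invariant functional
  obtain ⟨f0, hf0⟩ : ∃ f : W →+ F, f ≠ 0 := by
    letI : Module (ZMod 2) W := AddCommGroup.zmodModule fun x => by rw [two_smul, h2]
    obtain ⟨φ, hφ⟩ := not_forall.1 (mt (Module.forall_dual_apply_eq_zero_iff (ZMod 2) e).1 he)
    refine ⟨(ZMod.castHom dvd_rfl F).toAddMonoidHom.comp φ.toAddMonoidHom, fun e1 => hφ ?_⟩
    exact (map_eq_zero_iff _ (ZMod.castHom dvd_rfl F).injective).1 (DFunLike.congr_fun e1 e)
  letI : DistribMulAction Γ (W →+ F) :=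
    { smul := fun g f => f.comp (DistribSMul.toAddMonoidHom W g⁻¹)
      one_smul := fun f => AddMonoidHom.ext fun w => congrArg f (by simp)
      mul_smul := fun a b f => AddMonoidHom.ext fun w => congrArg f (by simp [mul_smul])
      smul_zero := fun _ => rfl
      smul_add := fun _ _ _ => rfl }
  haveI : Finite (W →+ F) := DFunLike.finite _
  obtain ⟨f1, hf1, hf1'⟩ := exists_fix_ne_zero S.isPGroup_U
    (fun f : W →+ F => AddMonoidHom.ext fun w => CharTwo.add_self_eq_zero _) hf0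
  let E : Submodule F (W →+ F) :=
    { carrier := {f | ∀ a b w, f (S.u a b • w) = f w}
      add_mem' := fun {f g} hf hg a b w => by simp [hf a b w, hg a b w]
      zero_mem' := fun _ _ _ => rfl
      smul_mem' := fun c f hf a b w => by simp [hf a b w] }
  let A : Fˣ →* Module.End F (W →+ F) :=
    { toFun := fun k =>
        { toFun := fun f => f.comp (DistribSMul.toAddMonoidHom W (S.h k))
          map_add' := fun _ _ => rfl
          map_smul' := fun _ _ => rfl }
      map_one' := LinearMap.ext fun f => AddMonoidHom.ext fun w => congrArg f (by simp)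
      map_mul' := fun k l => LinearMap.ext fun f => AddMonoidHom.ext fun w => congrArg f (by
        simp [← mul_smul, S.h_comm k l]) }
  obtain ⟨f, hfE, hf, χ, hχ⟩ := exists_eigen A E (fun k f hf a b w => by
      change f (S.h k • S.u a b • w) = f (S.h k • w)
      rw [← mul_smul, S.h_mul_u, mul_smul, hf]) (e := f1)
    (fun a b w => by
      have : f1 ((S.u a b)⁻¹⁻¹ • w) = f1 w := DFunLike.congr_fun (hf1' ⟨_, S.u_mem_U a b⟩⁻¹) w
      rwa [inv_inv] at this) hf1
  have hU : ∀ a b w, f (S.u a b • w) = f w := hfE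
  have hχ : ∀ k w, f (S.h k • w) = χ k * f w := fun k w => DFunLike.congr_fun (hχ k) w
  have five : ∀ w, f w + f (S.w • S.u 0 1 • w) + f (S.w • S.u 1 0 • w) + f (S.w • S.u 1 1 • w) +
      f (S.w • w) = 0 := fun w => by
    have := congrArg f (h.five S w)
    simpa only [map_add, hU, map_zero] using this
  have t2 : (2 : F) = 0 := CharTwo.two_eq_zero
  have fv : f v = 0 := by
    have := five v
    rw [hv, hv, hv] at this
    linear_combination this - 2 * f (S.w • v) * t2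
  have huh : ∀ a b (k : Fˣ), S.u a b • S.h k • v = S.h k • v := fun a b k => by
    have := S.h_mul_u k⁻¹ a b
    rw [map_inv, inv_mul_eq_iff_eq_mul] at this
    rw [this, mul_smul, mul_smul, inv_smul_smul, hv]
  let σ0 : F → F := fun z => if hz : z = 0 then 0 else (χ (nu.symm (Units.mk0 z hz))⁻¹ : Fˣ)
  have σz : σ0 0 = 0 := dif_pos rfl
  have σn : ∀ k : Fˣ, σ0 k = (χ (nu.symm k)⁻¹ : Fˣ) := fun k => by
    simp only [σ0, dif_neg k.ne_zero, Units.mk0_val]
  obtain ⟨c, hcw⟩ : ∃ c, f (S.w • v) = c := ⟨_, rfl⟩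
  have hP : ∀ g, f (g • v) = c * σ0 (ll S g) := fun g => by
    by_cases hg : g ∈ S.B
    · obtain ⟨a, b, k, rfl⟩ := S.mem_B_iff.1 hg
      rw [ll_B, σz, mul_smul, hU, hχ, fv, mul_zero, mul_zero]
    · obtain ⟨x, y, a, b, k, rfl⟩ := S.bruhat hg
      rw [ll_bruhat, ← coe_nu, σn, MulEquiv.symm_apply_apply, mul_smul, mul_smul, mul_smul, hU, huh,
        ← mul_smul, S.w_mul_h, mul_smul, ← map_inv, hχ, mul_comm, hcw]
  have hc : c ≠ 0 := fun e => hf (AddMonoidHom.ext fun w => by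
    have := hall
      { carrier := {x | ∀ g : Γ, f (g • x) = 0}
        add_mem' := fun {x y} hx hy g => by rw [smul_add, map_add, hx, hy, add_zero]
        zero_mem' := fun g => by simp
        neg_mem' := fun {x} hx g => by rw [smul_neg, map_neg, hx, neg_zero] }
      (fun g x hx g' => by rw [← mul_smul]; exact hx _) v (fun g => by rw [hP, e, zero_mul]) hv0 w 1
    rwa [one_smul] at this)
  have σ1 : σ0 1 = 1 := by simpa using σn 1
  have σm : ∀ x y, σ0 (x * y) = σ0 x * σ0 y := fun x y => by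
    rcases eq_or_ne x 0 with rfl | hx
    · rw [zero_mul, σz, zero_mul]
    rcases eq_or_ne y 0 with rfl | hy
    · rw [mul_zero, σz, mul_zero]
    have := σn (Units.mk0 x hx * Units.mk0 y hy)
    rw [map_mul, mul_inv, map_mul, Units.val_mul, Units.val_mul, ← σn, ← σn] at this
    exact this
  have σa : ∀ x, σ0 (x + 1) = σ0 x + 1 := fun x => by
    obtain ⟨b, rfl⟩ := th_bijective.2 x
    have := five ((S.u 0 b * S.w) • v)
    simp only [← mul_smul, ← mul_assoc (S.u _ _), S.u_mul, hP, ll_uw, ll_wuw, σ1, nrm_def] at this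
    simp only [map_zero, map_one, map_add, zero_mul, mul_zero, add_zero, zero_add, one_mul,
      one_pow] at this
    rw [show 1 + b + 1 + (1 + θ b) = b + 1 + θ b by linear_combination t2, add_comm 1 (θ b)] at this
    refine mul_left_cancel₀ hc ?_
    linear_combination this - c * (1 + σ0 (θ b) + σ0 (b + 1 + θ b)) * t2
  let σ : F →+* F :=
    { toFun := σ0, map_one' := σ1, map_mul' := σm, map_zero' := σz
      map_add' := fun x y => by
        rcases eq_or_ne y 0 with rfl | hy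
        · rw [add_zero, σz, add_zero]
        · rw [show x + y = (x / y + 1) * y by field_simp, σm, σa, add_mul, ← σm, div_mul_cancel₀ _ hy,
            one_mul] }
  let τ := RingEquiv.ofBijective σ (Finite.injective_iff_bijective.1 σ.injective)
  let f' : W →+ F := τ.symm.toAddMonoidHom.comp ((AddMonoidHom.mulLeft c⁻¹).comp f)
  have hf' : ∀ g, f' (g • v) = ll S g := fun g => by
    change τ.symm (c⁻¹ * f (g • v)) = _
    rw [hP, inv_mul_cancel_left₀ hc, RingEquiv.symm_apply_eq]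
    rfl
  have hex := hall
    { carrier := {x | ∃ y, ∀ g : Γ, f' (g • x) = (S.mat g *ᵥ y) 3}
      add_mem' := fun {x y} ⟨a, hx⟩ ⟨b, hy⟩ => ⟨a + b, fun g => by
        rw [smul_add, map_add, hx, hy, mulVec_add, Pi.add_apply]⟩
      zero_mem' := ⟨0, fun g => by simp⟩
      neg_mem' := fun {x} ⟨a, hx⟩ => ⟨-a, fun g => by
        rw [smul_neg, map_neg, hx, mulVec_neg, Pi.neg_apply]⟩ }
    (fun g x ⟨a, hx⟩ => ⟨S.mat g *ᵥ a, fun g' => by
      rw [← mul_smul, hx, map_mul, mulVec_mulVec]⟩) v ⟨_, hf'⟩ hv0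
  choose ρ hρ using hex
  have uniq : ∀ x y, (∀ g : Γ, f' (g • x) = (S.mat g *ᵥ y) 3) → ρ x = y := fun x y hy =>
    sub_eq_zero.1 (eq_zero_of_three S fun g => by rw [mulVec_sub, Pi.sub_apply, ← hρ, hy, sub_self])
  let ρ' : W →+ (Fin 4 → F) := AddMonoidHom.mk' ρ fun x y => uniq _ _ fun g => by
    rw [smul_add, map_add, hρ, hρ, mulVec_add, Pi.add_apply]
  have heq : ∀ (g : Γ) (w : W), ρ' (g • w) = S.mat g *ᵥ ρ' w := fun g w => uniq _ _ fun g' => by
    rw [← mul_smul, hρ, map_mul, mulVec_mulVec]; rfl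
  have hρv : ρ' v = ![1, 0, 0, 0] := uniq _ _ hf'
  refine ⟨ρ', ⟨(injective_iff_map_eq_zero _).2 fun w hw => by_contra fun h0 => ?_, fun y => ?_⟩, heq⟩
  · have := hall ρ'.ker (fun g x hx => by
      rw [AddMonoidHom.mem_ker] at hx ⊢
      rw [heq, hx, mulVec_zero]) w hw h0 v
    exact e0_ne_zero (hρv.symm.trans this)
  · exact span_e0' S ρ'.range (by rintro g _ ⟨x, rfl⟩; exact ⟨_, heq g x⟩) ⟨v, hρv⟩ y

end H32
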