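import Mathlib
import Cfsg.Agent.Base
import Cfsg.Agent.Lib.CIT.Mart1
import Cfsg.Agent.Lib.Suzuki.LieModel

/-! The natural module of a Suzuki group: no invariant products, no lift to exponent four. -/

set_option autoImplicit false
set_option linter.unusedSectionVars false
set_option linter.style.haveILetI false

namespace H32

open Subgroup H14.Sz
open Matrix hiding vec vec_zero

theorem hom_pair {F : Type*} [Field F] {a b c d : F →+* F} (h : ∀ x ≠ 0, a x * b x = c x * d x) :
    (a = c ∧ b = d) ∨ (a = d ∧ b = c) := by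
  have h : ∀ x, a x * b x = c x * d x := fun x => by
    rcases eq_or_ne x 0 with rfl | hx
    exacts [by simp, h x hx]
  have hs : ∀ x, a x + b x = c x + d x := fun x => by
    have := h (x + 1)
    simp only [map_add, map_one] at this
    linear_combination this - h x
  have ho : ∀ x, a x = c x ∨ a x = d x := fun x => by
    rw [← sub_eq_zero, ← sub_eq_zero (a := a x), ← mul_eq_zero]
    linear_combination a x * hs x - h x
  by_cases h1 : a = c
  · exact .inl ⟨h1, RingHom.ext fun x => by linear_combination hs x - DFunLike.congr_fun h1 x⟩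
  by_cases h2 : a = d
  · exact .inr ⟨h2, RingHom.ext fun x => by linear_combination hs x - DFunLike.congr_fun h2 x⟩
  obtain ⟨x, hx⟩ := DFunLike.ne_iff.1 h1
  obtain ⟨y, hy⟩ := DFunLike.ne_iff.1 h2
  have e1 := (ho x).resolve_left hx
  have e2 := (ho y).resolve_right hy
  rcases ho (x + y) with e | e <;> simp only [map_add] at e
  · exact absurd (by linear_combination e - e2) hx
  · exact absurd (by linear_combination e - e1) hy

theorem exists_ringHom_of_eigen {F V E : Type*} [Field F] [AddCommGroup V] [Module F V]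
    [AddCommGroup E] [Module F E] (φ : V →+ E) (h0 : φ ≠ 0) (χ : Fˣ →* Fˣ)
    (h : ∀ (s : Fˣ) (x : V), φ ((s : F) • x) = (χ s : F) • φ x) :
    ∃ σ : F →+* F, ∀ (s : F) (x : V), φ (s • x) = σ s • φ x := by
  classical
  obtain ⟨x, hx⟩ := DFunLike.ne_iff.1 h0
  let σ : F → F := fun s => if hs : s = 0 then 0 else χ (Units.mk0 s hs)
  have hσ : ∀ s x, φ (s • x) = σ s • φ x := fun s x => by
    by_cases hs : s = 0
    · simp [σ, hs]
    · simp only [σ, dif_neg hs]; exact h (Units.mk0 s hs) x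
  have inj := smul_left_injective F hx
  exact ⟨{ toFun := σ
           map_one' := inj (by simp only [← hσ, one_smul])
           map_mul' := fun s t => inj (by simp only [mul_smul, ← hσ])
           map_zero' := dif_pos rfl
           map_add' := fun s t => inj (by simp only [add_smul, ← hσ, map_add]) }, hσ⟩

variable {Γ : Type*} [Group Γ] {F : Type*} [Field F] [Fintype F] {m : ℕ} [hz : SzF F m]
  (S : Model Γ F m) {W : Type*} [AddCommGroup W] [DistribMulAction Γ W]

local notation "θ" => th F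

include hz in
theorem hom_pair' {a b c : F →+* F} (h : ∀ x ≠ 0, a x * b x = c x) : a = b ∧ a ≠ c := by
  have h : ∀ x, a x * b x = c x := fun x => by
    rcases eq_or_ne x 0 with rfl | hx
    exacts [by simp, h x hx]
  have e : a = b := RingHom.ext fun x => by
    have := h (x + 1)
    simp only [map_add, map_one] at this
    linear_combination this - h x - b x * (two_eq_zero' : (2 : F) = 0)
  refine ⟨e, fun e' => ?_⟩
  obtain ⟨x, h0, h1⟩ := exists_ne_zero_ne_one F
  have := h x
  rw [← e, ← e', mul_eq_left₀ ((map_ne_zero a).2 h0)] at this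
  exact h1 (a.injective (this.trans (map_one a).symm))

theorem comp_th_ne (a : F →+* F) : a.comp θ ≠ a := fun e =>
  let ⟨x, hx⟩ := exists_th_ne_self F
  hx (a.injective (DFunLike.congr_fun e x))

/-- An invariant form which is semilinear in each of three variables. -/
structure SemiTri (τ : (Fin 4 → F) → (Fin 4 → F) → (Fin 4 → F) → F) (a b c : F →+* F) : Prop where
  add1 : ∀ x x' y z, τ (x + x') y z = τ x y z + τ x' y z
  add2 : ∀ x y y' z, τ x (y + y') z = τ x y z + τ x y' z
  add3 : ∀ x y z z', τ x y (z + z') = τ x y z + τ x y z'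
  smul1 : ∀ (s : F) x y z, τ (s • x) y z = a s * τ x y z
  smul2 : ∀ (s : F) x y z, τ x (s • y) z = b s * τ x y z
  smul3 : ∀ (s : F) x y z, τ x y (s • z) = c s * τ x y z
  inv : ∀ g x y z, τ (S.mat g *ᵥ x) (S.mat g *ᵥ y) (S.mat g *ᵥ z) = τ x y z

variable {S} {τ : (Fin 4 → F) → (Fin 4 → F) → (Fin 4 → F) → F} {a b c : F →+* F}

theorem SemiTri.rot (h : SemiTri S τ a b c) : SemiTri S (fun x y z => τ z x y) b c a :=
  ⟨fun _ _ _ _ => h.add2 .., fun _ _ _ _ => h.add3 .., fun _ _ _ _ => h.add1 ..,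
    fun _ _ _ _ => h.smul2 .., fun _ _ _ _ => h.smul3 .., fun _ _ _ _ => h.smul1 ..,
    fun _ _ _ _ => h.inv ..⟩

theorem SemiTri.wt (h : SemiTri S τ a b c) {z : Fin 4 → F} (hz0 : τ ![1, 0, 0, 0] (vec 0 0) z ≠ 0)
    {x : F} (hx : x ≠ 0) :
    ∃ k : F, k ≠ 0 ∧ rt k * k = x ∧ x * rt k = θ x ∧ ∀ s, hM k *ᵥ z = s • z → a x * c s = b x := by
  obtain ⟨k, hk⟩ := (nu (F := F)).surjective (Units.mk0 x hx)
  have e : rt (k : F) * k = x := congrArg Units.val hk
  refine ⟨k, k.ne_zero, e, by rw [← e, map_mul, th_rt, ← rt_sq]; ring, fun s hs => ?_⟩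
  have := h.inv (S.h k) ![1, 0, 0, 0] (vec 0 0) z
  rw [S.mat_h, hs, hM_mulVec_e0, hM_mulVec k.ne_zero, mul_zero, mul_zero, h.smul1, h.smul2, h.smul3,
    e, map_inv₀, ← mul_assoc, ← mul_assoc, mul_eq_right₀ hz0] at this
  have hb := (map_ne_zero b).2 hx
  field_simp at this
  linear_combination this

theorem SemiTri.zero_of (h : SemiTri S τ a b c) (hc : (c ≠ a ∧ c ≠ b) ∨ (a = b ∧ b = c))
    (x y z : Fin 4 → F) : τ x y z = 0 := by
  have hM' : ∀ (k : F) (i : Fin 4), hM k *ᵥ Pi.single i 1 = hM k i i • Pi.single i 1 := fun k i => by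
    ext j
    fin_cases i <;> fin_cases j <;> simp [hM]
  have h1 : ∀ i : Fin 4, τ ![1, 0, 0, 0] (vec 0 0) (Pi.single i 1) = 0 := fun i => by
    by_contra hne
    have key : ∀ x ≠ 0, ∃ k : F, k ≠ 0 ∧ rt k * k = x ∧ x * rt k = θ x ∧ a x * c (hM k i i) = b x :=
      fun x hx => let ⟨k, h1, h2, h3, h4⟩ := h.wt hne hx; ⟨k, h1, h2, h3, h4 _ (hM' k i)⟩
    fin_cases i
    · have := hom_pair' (a := a) (b := c) (c := b) fun x hx => by
        obtain ⟨k, -, h2, -, h4⟩ := key x hx
        simpa [hM, h2, -map_mul] using h4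
      rcases hc with h | h
      exacts [h.1 this.1.symm, this.2 h.1]
    · have := hom_pair (a := a) (b := c.comp θ) (c := b) (d := c) fun x hx => by
        obtain ⟨k, -, -, h3, h4⟩ := key x hx
        simp only [hM, Fin.mk_one, of_apply, cons_val', cons_val_one, cons_val_zero] at h4
        rw [RingHom.comp_apply, ← h3, map_mul, ← h4]; ring
      rcases this with e | e
      · exact comp_th_ne c e.2
      rcases hc with h | h
      exacts [h.1 e.1.symm, comp_th_ne c (e.2.trans h.2)]
    · have := hom_pair (a := b) (b := c.comp θ) (c := a) (d := c) fun x hx => by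
        obtain ⟨k, h1, -, h3, h4⟩ := key x hx
        have h5 : a x * (c (rt k))⁻¹ = b x := by simpa [hM] using h4
        rw [RingHom.comp_apply, ← h3, map_mul, ← h5]
        have := (map_ne_zero c).2 (rt_ne_zero h1)
        field_simp
      rcases this with e | e
      · exact comp_th_ne c e.2
      rcases hc with h | h
      exacts [h.2 e.1.symm, comp_th_ne c (e.2.trans (h.1.trans h.2))]
    · have := hom_pair' (a := b) (b := c) (c := a) fun x hx => by
        obtain ⟨k, -, h2, -, h4⟩ := key x hx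
        have h5 : a x * (c x)⁻¹ = b x := by simpa [hM, h2, -map_mul, -_root_.mul_inv_rev] using h4
        rw [← h5, inv_mul_cancel_right₀ ((map_ne_zero c).2 hx)]
      rcases hc with h | h
      exacts [h.2 this.1.symm, this.2 h.1.symm]
  have h2 : ∀ z, τ ![1, 0, 0, 0] (vec 0 0) z = 0 := fun z => by
    have : z = z 0 • Pi.single 0 1 + z 1 • Pi.single 1 1 + z 2 • Pi.single 2 1 +
        z 3 • Pi.single 3 1 := by
      ext i; fin_cases i <;> simp
    rw [this]
    simp only [h.add3, h.smul3, h1, mul_zero, add_zero]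
  have hg : ∀ (g : Γ) (z : Fin 4 → F), z = S.mat g *ᵥ S.mat g⁻¹ *ᵥ z := fun g z => by
    rw [mulVec_mulVec, ← map_mul, mul_inv_cancel, map_one, one_mulVec]
  have h3 : ∀ y z, τ ![1, 0, 0, 0] y z = 0 := span_vec
    { carrier := {y | ∀ z, τ ![1, 0, 0, 0] y z = 0}
      add_mem' := fun {x y} hx hy z => by rw [h.add2, hx, hy, add_zero]
      zero_mem' := fun z => by simpa using h.smul2 0 _ 0 z
      neg_mem' := fun {x} hx z => by rw [← neg_one_smul F, h.smul2, hx, mul_zero] }
    fun s t u z => by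
      have := h.inv (S.u s t) ![1, 0, 0, 0] (vec 0 0) (S.mat (S.u s t)⁻¹ *ᵥ z)
      rw [← hg, h2, S.mat_u, uM_mulVec_e0, uM_mulVec] at this
      simp only [zero_add, mul_zero, add_zero] at this
      rw [h.smul2, this, mul_zero]
  exact span_e0' S
    { carrier := {x | ∀ y z, τ x y z = 0}
      add_mem' := fun {x y} hx hy z w => by rw [h.add1, hx, hy, add_zero]
      zero_mem' := fun y z => by simpa using h.smul1 0 0 y z
      neg_mem' := fun {x} hx y z => by rw [← neg_one_smul F, h.smul1, hx, mul_zero] }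
    (fun g x hx y z => by rw [hg g y, hg g z, h.inv, hx]) h3 x y z

theorem SemiTri.zero (h : SemiTri S τ a b c) (x y z : Fin 4 → F) : τ x y z = 0 := by
  by_cases h1 : c = a
  · by_cases h2 : a = b
    · exact h.zero_of (.inr ⟨h2, h2.symm.trans h1.symm⟩) x y z
    · exact h.rot.rot.zero_of (.inl ⟨h1 ▸ Ne.symm h2, Ne.symm h2⟩) z x y
  by_cases h2 : c = b
  · exact h.rot.zero_of (.inl ⟨h2 ▸ Ne.symm h1, Ne.symm h1⟩) y z x
  · exact h.zero_of (.inl ⟨h1, h2⟩) x y z

variable (S)

theorem biadd_zero (β : (Fin 4 → F) →+ (Fin 4 → F) →+ (Fin 4 → F))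
    (hβ : ∀ g x y, β (S.mat g *ᵥ x) (S.mat g *ᵥ y) = S.mat g *ᵥ β x y) : β = 0 := by
  by_contra h0
  let Y : Submodule F ((Fin 4 → F) →+ (Fin 4 → F) →+ (Fin 4 → F)) :=
    { carrier := {β | ∀ g x y, β (S.mat g *ᵥ x) (S.mat g *ᵥ y) = S.mat g *ᵥ β x y}
      add_mem' := fun {f g} hf hg a x y => by simp [hf a x y, hg a x y, mulVec_add]
      zero_mem' := fun _ _ _ => by simp
      smul_mem' := fun c f hf a x y => by simp [hf a x y, mulVec_smul] }
  let A : Fˣ →* Module.End F ((Fin 4 → F) →+ (Fin 4 → F) →+ (Fin 4 → F)) :=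
    { toFun := fun k =>
        { toFun := fun f => f.comp (DistribSMul.toAddMonoidHom _ (k : F))
          map_add' := fun _ _ => rfl
          map_smul' := fun _ _ => rfl }
      map_one' := LinearMap.ext fun f => AddMonoidHom.ext fun w => congrArg f (by simp)
      map_mul' := fun k l => LinearMap.ext fun f => AddMonoidHom.ext fun w => congrArg f (by
        simp [← mul_smul, mul_comm]) }
  let B : Fˣ →* Module.End F ((Fin 4 → F) →+ (Fin 4 → F) →+ (Fin 4 → F)) :=
    { toFun := fun k =>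
        { toFun := fun f => (f.flip.comp (DistribSMul.toAddMonoidHom _ (k : F))).flip
          map_add' := fun _ _ => rfl
          map_smul' := fun _ _ => rfl }
      map_one' := LinearMap.ext fun f => AddMonoidHom.ext fun v => AddMonoidHom.ext fun w =>
        congrArg (f v) (by simp)
      map_mul' := fun k l => LinearMap.ext fun f => AddMonoidHom.ext fun v =>
        AddMonoidHom.ext fun w => congrArg (f v) (by simp [← mul_smul, mul_comm]) }
  obtain ⟨β1, hY, h1, χ, hχ⟩ := exists_eigen A Y (fun k f hf g x y => by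
    change f ((k : F) • _) _ = _ *ᵥ f ((k : F) • x) y
    rw [← mulVec_smul, hf]) hβ h0
  obtain ⟨β2, ⟨hY, hχ⟩, h2, χ', hχ'⟩ := exists_eigen B (Y ⊓
    { carrier := {f | ∀ (s : Fˣ) x y, f ((s : F) • x) y = (χ s : F) • f x y}
      add_mem' := fun {f g} hf hg a x y => by simp [hf a x y, hg a x y]
      zero_mem' := fun _ _ _ => by simp
      smul_mem' := fun c f hf a x y => by simp [hf a x y, smul_comm c] })
    (fun k f hf => ⟨fun g x y => by
      change f _ ((k : F) • _) = _ *ᵥ f x ((k : F) • y)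
      rw [← mulVec_smul]; exact hf.1 g x _, fun s x y => hf.2 s x _⟩) (e := β1)
    ⟨hY, fun s x y => DFunLike.congr_fun (DFunLike.congr_fun (hχ s) x) y⟩ h1
  obtain ⟨a, ha⟩ := exists_ringHom_of_eigen β2 h2 χ fun s x => AddMonoidHom.ext (hχ s x)
  obtain ⟨b, hb⟩ := exists_ringHom_of_eigen β2.flip (fun e => h2 (AddMonoidHom.ext fun x =>
    AddMonoidHom.ext fun y => DFunLike.congr_fun (DFunLike.congr_fun e y) x)) χ'
    fun s y => AddMonoidHom.ext fun x => DFunLike.congr_fun (DFunLike.congr_fun (hχ' s) x) y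
  have ht : SemiTri S (fun x y z => β2 x y ⬝ᵥ (wM F *ᵥ z)) a b (RingHom.id F) :=
    ⟨fun _ _ _ _ => by simp [add_dotProduct], fun _ _ _ _ => by simp [add_dotProduct],
      fun _ _ _ _ => by simp [mulVec_add], fun _ _ _ _ => by simp [ha],
      fun s x y z => by
        have : β2 x (s • y) = b s • β2 x y := DFunLike.congr_fun (hb s y) x
        simp [this], fun _ _ _ _ => by simp [mulVec_smul], fun g x y z => by
        rw [hY, mulVec_mulVec, dotProduct_mulVec, vecMul_mulVec, ← Matrix.mul_assoc,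
          S.mat_transpose_form, dotProduct_mulVec]⟩
  refine h2 (AddMonoidHom.ext fun x => AddMonoidHom.ext fun y => ?_)
  have := ht.zero x y
  refine dotProduct_eq_zero _ fun z => ?_
  have := this (wM F *ᵥ z)
  rwa [mulVec_mulVec, wM_mul_wM, one_mulVec] at this

theorem uM_sub (b : F) (y : Fin 4 → F) :
    uM 0 b *ᵥ y - y = ![b * y 2 + θ b * y 3, b * y 3, 0, 0] := by
  ext i
  fin_cases i <;> simp [uM, dotProduct, Fin.sum_univ_four, nrm_def]
  ring

theorem OFpf.no_lift (h : OFpf Γ W) (K : AddSubgroup W) (ρ : W →+ (Fin 4 → F))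
    (hρ : ∀ (g : Γ) (w : W), ρ (g • w) = S.mat g *ᵥ ρ w) (hK : ∀ a, a + a ∈ K ↔ ρ a = 0) (a : W) :
    ρ a ≠ vec 0 0 := by
  classical
  intro ha
  let Y : F → W →+ W := fun b => DistribSMul.toAddMonoidHom W (S.u 0 b) - AddMonoidHom.id W
  have hY : ∀ b x, Y b x = S.u 0 b • x - x := fun _ _ => rfl
  have hρY : ∀ b x, ρ (Y b x) = ![b * ρ x 2 + θ b * ρ x 3, b * ρ x 3, 0, 0] := fun b x => by
    rw [hY, map_sub, hρ, S.mat_u, uM_sub]
  have hc : ∀ b c x, Y b (Y c x) = Y c (Y b x) := fun b c x => by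
    simp only [hY, smul_sub, ← mul_smul, S.u_zero_mul, add_comm b c]
    abel
  have hsq : ∀ b x, Y b (Y b x) = -(Y b x + Y b x) := fun b x => by
    simp only [hY, smul_sub, ← mul_smul, S.u_zero_sq, one_smul]
    abel
  have hT : ∀ (μ : Fˣ) (x : W),
      ∑ l : Fˣ, Y l (Y (μ * μ * l⁻¹ : Fˣ) x) + (Y μ x + Y μ x) ∈ K := fun μ x => by
    rw [← Finset.sum_erase_add _ _ (Finset.mem_univ μ), mul_inv_cancel_right, hsq,
      neg_add_cancel_right, ← QuotientAddGroup.eq_zero_iff, ← QuotientAddGroup.mk'_apply, map_sum]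
    have hne : ∀ l : Fˣ, l ≠ μ → μ * μ * l⁻¹ ≠ l := fun l hl e => hl (Units.ext (sq_injective (by
      rw [mul_inv_eq_iff_eq_mul] at e
      rw [sq, sq, ← Units.val_mul, ← e, Units.val_mul])))
    have hi : ∀ l : Fˣ, μ * μ * (μ * μ * l⁻¹)⁻¹ = l := fun l => by
      rw [mul_inv, inv_inv, mul_inv_cancel_left]
    refine Finset.sum_involution (fun l _ => μ * μ * l⁻¹) (fun l _ => ?_)
      (fun l hl _ => hne l (Finset.ne_of_mem_erase hl)) (fun l hl => ?_) fun l _ => hi l
    · rw [hi, hc _ l, ← map_add, QuotientAddGroup.mk'_apply,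
        QuotientAddGroup.eq_zero_iff, hK, hρY, hρY]
      simp
    · refine Finset.mem_erase.2 ⟨fun e => Finset.ne_of_mem_erase hl ?_, Finset.mem_univ _⟩
      rw [mul_inv_eq_iff_eq_mul] at e
      exact (mul_left_cancel e).symm
  let ω : Fˣ → Fˣ := fun l => Units.map (θ).toMonoidHom l * l
  have hω : ∀ l, (ω l : F) = θ l * l := fun _ => rfl
  have hsum : ∀ x : W, ∑ l : Fˣ, S.h (l * l) • x = 0 := fun x => by
    rw [← h.sum_h S x]
    exact Fintype.sum_bijective (fun l : Fˣ => l * l) (Finite.injective_iff_bijective.1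
      fun k l e => Units.ext (sq_injective (by
        rw [sq, sq, ← Units.val_mul, ← Units.val_mul]; exact congrArg _ e))) _ _ fun _ => rfl
  have h0 : ∑ k : Fˣ, ∑ l : Fˣ, Y l (Y (ω k * ω k * l⁻¹ : Fˣ) (S.h (k * k) • a)) = 0 := by
    rw [Finset.sum_comm]
    refine Finset.sum_eq_zero fun l _ => ?_
    rw [← map_sum, ← map_zero (Y l), ← hsum (Y (l⁻¹ : Fˣ) a)]
    congr 1
    refine Finset.sum_congr rfl fun k _ => ?_
    rw [hY, hY, smul_sub, ← mul_smul (S.h _), S.h_mul_u, mul_smul, mul_zero]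
    simp only [Units.val_mul, hω, map_mul, mul_mul_mul_comm]
  have h1 := K.sum_mem (t := Finset.univ) fun k _ => hT (ω k) (S.h (k * k) • a)
  rw [Finset.sum_add_distrib, h0, zero_add, Finset.sum_add_distrib, hK, map_sum] at h1
  have h2 := congrFun h1 0
  rw [Finset.sum_apply, Finset.sum_congr rfl (g := fun _ => 1) fun k _ => ?_] at h2
  · rw [Finset.sum_const, Finset.card_univ, Fintype.card_units, nsmul_one,
      Nat.cast_sub Fintype.card_pos, FiniteField.cast_card_eq_zero] at h2
    simp at h2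
  · rw [hρY, hρ, ha, S.mat_h, hM_mulVec (Units.ne_zero _), hω, Units.val_mul, rt_mul, ← sq (rt _),
      rt_sq]
    have := th_ne_zero k.ne_zero
    simp [vec, th_th]
    field_simp

end H32
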