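import Mathlib
import Cfsg.Agent.Base
import Cfsg.Agent.Lib.CIT.Mart2
import Cfsg.Agent.Lib.CIT.Hig2
import Cfsg.Agent.Lib.CIT.Basic

/-! A `2`-group extended by a Suzuki group whose elements of odd order act without fixed points is
elementary abelian. -/

set_option autoImplicit false
set_option linter.unusedSectionVars false
set_option linter.style.haveILetI false

namespace H32

open Subgroup H14.Sz
open Matrix hiding vec vec_zero
open scoped commutatorElement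

variable {G : Type*} [Group G] [Finite G] {Γ : Type*} [Group Γ] {π : G →* Γ} {Q : Subgroup G}

theorem SMod.ofpf {W : Type*} [AddCommGroup W] [DistribMulAction Γ W] {A B : Subgroup G}
    [hA : A.Normal] {ψ : G → W} (m : SMod π A B ψ) (hπ : Function.Surjective π)
    (hf : ∀ x : G, x ≠ 1 → Odd (orderOf x) → ∀ q ∈ A, q * x = x * q → q = 1) : OFpf Γ W := by
  intro s hs ho w hw
  obtain ⟨g, rfl⟩ := hπ s
  obtain ⟨k, hk⟩ := exists_odd_pow g
  have h1 : g ^ 2 ^ k ≠ 1 := fun e => hs (eq_one_of_odd_of_pow ho (by rw [← map_pow, e, map_one]))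
  have hw' : π (g ^ 2 ^ k) • w = w := by
    rw [map_pow]; exact (MulAction.stabilizer Γ w).pow_mem hw _
  generalize g ^ 2 ^ k = x at hk h1 hw'
  let f : A → A := fun a => ⟨x * a * x⁻¹ * (a : G)⁻¹, A.mul_mem (hA.conj_mem _ a.2 x) (A.inv_mem a.2)⟩
  have hi : Function.Injective f := fun a b e => by
    have e1 : x * a * x⁻¹ * (a : G)⁻¹ = x * b * x⁻¹ * (b : G)⁻¹ := congrArg Subtype.val e
    have := hf x h1 hk ((b : G)⁻¹ * a) (A.mul_mem (A.inv_mem b.2) a.2) (by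
      calc (b : G)⁻¹ * a * x = x * (b : G)⁻¹ * x⁻¹ * (x * b * x⁻¹ * (b : G)⁻¹) * a * x := by group
        _ = _ := by rw [← e1]; group)
    exact Subtype.ext (inv_mul_eq_one.1 this).symm
  haveI := m.finite
  have hs : Function.Surjective fun w : W => π x • w - w := fun w => by
    obtain ⟨v, hv, rfl⟩ := m.surj w
    obtain ⟨a, ha⟩ := Finite.surjective_of_injective hi ⟨v, hv⟩
    refine ⟨ψ a, ?_⟩
    have : v = x * a * x⁻¹ * (a : G)⁻¹ := (congrArg Subtype.val ha).symm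
    rw [this, m.mul _ (hA.conj_mem _ a.2 x) _ (A.inv_mem a.2), m.inv a.2, ← m.smul _ _ a.2]
    exact sub_eq_add_neg _ _
  exact Finite.injective_iff_surjective.2 hs (by simp [hw'])

variable {F : Type*} [Field F] [Fintype F] {n : ℕ} [hz : SzF F n] (S : Model Γ F n)

/-- The natural module. -/
@[reducible] noncomputable def natAct : DistribMulAction Γ (Fin 4 → F) where
  smul g y := S.mat g *ᵥ y
  one_smul y := by change S.mat 1 *ᵥ y = y; rw [map_one, one_mulVec]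
  mul_smul g h y := by change S.mat (g * h) *ᵥ y = S.mat g *ᵥ S.mat h *ᵥ y; rw [map_mul, mulVec_mulVec]
  smul_zero g := mulVec_zero _
  smul_add g := mulVec_add _

variable (hπ : Function.Surjective π) (hk : π.ker = Q) (h2 : IsPGroup 2 Q)
  (hf : ∀ x : G, x ≠ 1 → Odd (orderOf x) → ∀ q ∈ Q, q * x = x * q → q = 1)

include hπ hk h2 hf

theorem exists_chief {A : Subgroup G} [hA : A.Normal] (hAQ : A ≤ Q) (h0 : A ≠ ⊥) :
    letI := natAct S
    ∃ B : Subgroup G, B.Normal ∧ B < A ∧ ∃ ρ : G → Fin 4 → F, SMod π A B ρ := by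
  subst hk
  letI := natAct S
  obtain ⟨B, -, ⟨hB, h1, hlt⟩, hmax⟩ := Finite.exists_le_maximal
    (p := fun N : Subgroup G => N.Normal ∧ ⁅A, π.ker⁆ ≤ N ∧ N < A) (a := ⁅A, π.ker⁆)
    ⟨inferInstance, le_rfl, (commutator_le_left _ _).lt_of_ne fun e =>
      h0 (H24.eq_bot_of_le_commutator_of_isNilpotent h2.isNilpotent hAQ e.ge)⟩
  obtain ⟨W, _, _, ψ, m⟩ := exists_smod π hπ hlt.le ((commutator_mono le_rfl hAQ).trans h1)
    (by rwa [commutator_comm])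
  haveI := m.finite
  have hirr : ∀ Y : AddSubgroup W, (∀ g : Γ, ∀ v ∈ Y, g • v ∈ Y) → Y = ⊥ ∨ Y = ⊤ := fun Y hY => by
    let N : Subgroup G :=
      { carrier := {v | v ∈ A ∧ ψ v ∈ Y}
        mul_mem' := fun {a b} ha hb => ⟨A.mul_mem ha.1 hb.1, by
          rw [m.mul _ ha.1 _ hb.1]; exact Y.add_mem ha.2 hb.2⟩
        one_mem' := ⟨A.one_mem, by rw [m.one]; exact Y.zero_mem⟩
        inv_mem' := fun {a} ha => ⟨A.inv_mem ha.1, by rw [m.inv ha.1]; exact Y.neg_mem ha.2⟩ }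
    have hBN : B ≤ N := fun v hv => ⟨hlt.le hv, by
      rw [(m.ker v (hlt.le hv)).2 hv]; exact Y.zero_mem⟩
    rcases (show N ≤ A from fun v hv => hv.1).eq_or_lt with e | e
    · refine .inr (eq_top_iff.2 fun w _ => ?_)
      obtain ⟨v, hv, rfl⟩ := m.surj w
      exact (e.ge hv).2
    · refine .inl (eq_bot_iff.2 fun w hw => ?_)
      obtain ⟨v, hv, rfl⟩ := m.surj w
      exact (m.ker v hv).2 (hmax (y := N) ⟨⟨fun x hx g => ⟨hA.conj_mem _ hx.1 g, by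
        rw [← m.smul _ _ hx.1]; exact hY _ _ hx.2⟩⟩, h1.trans hBN, e⟩ hBN ⟨hv, hw⟩)
  obtain ⟨v, hv, hvB⟩ := SetLike.exists_of_lt hlt
  have he : ψ v ≠ 0 := mt (m.ker v hv).1 hvB
  have hw : ∀ w : W, w + w = 0 := by
    obtain ⟨k, hk⟩ := m.tors (h2.to_le hAQ)
    rcases hirr (nsmulAddMonoidHom 2).range (by
      rintro g _ ⟨w, rfl⟩
      exact ⟨g • w, by simp [two_smul]⟩) with e | e
    · intro w
      rw [← two_nsmul]
      exact AddSubgroup.mem_bot.1 (e ▸ ⟨w, rfl⟩)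
    · have : ∀ (j : ℕ) (w : W), ∃ x, w = 2 ^ j • x := fun j => by
        induction j with
        | zero => exact fun w => ⟨w, by simp⟩
        | succ j ih =>
          intro w
          obtain ⟨x, rfl⟩ := ih w
          obtain ⟨y, rfl⟩ := e.ge (AddSubgroup.mem_top x)
          exact ⟨y, by simp [pow_succ, mul_smul]⟩
      obtain ⟨x, hx⟩ := this k (ψ v)
      exact absurd (hx.trans (hk x)) he
  obtain ⟨ρ, hρ, hρ'⟩ := (m.ofpf hπ fun x h1 ho q hq => hf x h1 ho q (hAQ hq)).natural S hw he hirr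
  refine ⟨B, hB, hlt, ρ ∘ ψ, fun u hu v hv => ?_, fun y => ?_, fun v hv => ?_, fun x v hv => ?_⟩
  · simp only [Function.comp_apply, m.mul u hu v hv, map_add]
  · obtain ⟨w, rfl⟩ := hρ.2 y
    obtain ⟨v, hv, rfl⟩ := m.surj w
    exact ⟨v, hv, rfl⟩
  · rw [Function.comp_apply, map_eq_zero_iff ρ hρ.1, m.ker v hv]
  · rw [Function.comp_apply, Function.comp_apply, ← m.smul x v hv, hρ']; rfl

include S

theorem martineau_comm : ⁅Q, Q⁆ = ⊥ := by
  haveI hQ : Q.Normal := hk ▸ inferInstance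
  letI := natAct S
  by_contra h0
  obtain ⟨B, hB, hlt, ρ, m⟩ := exists_chief S hπ hk h2 hf (commutator_le_left Q Q) h0
  obtain ⟨A1, -, ⟨hA1, h1, h1'⟩, hmin1⟩ := Finite.exists_le_minimal
    (p := fun N : Subgroup G => N.Normal ∧ N ≤ Q ∧ ¬ ⁅N, Q⁆ ≤ B) ⟨hQ, le_rfl, hlt.not_ge⟩
  obtain ⟨A2, -, ⟨hA2, h3, h3'⟩, hmin2⟩ := Finite.exists_le_minimal
    (p := fun N : Subgroup G => N.Normal ∧ N ≤ Q ∧ ¬ ⁅A1, N⁆ ≤ B) ⟨hQ, le_rfl, h1'⟩
  obtain ⟨B1, hB1, hlt1, ρ1, m1⟩ := exists_chief S hπ hk h2 hf h1 (by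
    rintro rfl; exact h1' (by simp))
  obtain ⟨B2, hB2, hlt2, ρ2, m2⟩ := exists_chief S hπ hk h2 hf h3 (by
    rintro rfl; exact h3' (by simp))
  have k1 : ⁅B1, Q⁆ ≤ B := by_contra fun h =>
    hlt1.not_ge (hmin1 ⟨hB1, hlt1.le.trans h1, h⟩ hlt1.le)
  have k2 : ⁅A1, B2⁆ ≤ B := by_contra fun h =>
    hlt2.not_ge (hmin2 ⟨hB2, hlt2.le.trans h3, h⟩ hlt2.le)
  have wd : ∀ a ∈ A1, ∀ a' ∈ A1, ∀ b ∈ A2, ∀ b' ∈ A2, ρ1 a = ρ1 a' → ρ2 b = ρ2 b' →
      ρ ⁅a, b⁆ = ρ ⁅a', b'⁆ := fun a ha a' ha' b hb b' hb' e1 e2 => by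
    have c1 := A1.mul_mem ha (A1.inv_mem ha')
    have c2 := A2.mul_mem hb (A2.inv_mem hb')
    have d1 := (m1.ker _ c1).1 (by rw [m1.mul _ ha _ (A1.inv_mem ha'), m1.inv ha', e1, add_neg_cancel])
    have d2 := (m2.ker _ c2).1 (by rw [m2.mul _ hb _ (A2.inv_mem hb'), m2.inv hb', e2, add_neg_cancel])
    rw [← inv_mul_cancel_right a a', m.comm_left hk.ge (h1 c1) (h1 ha') (h3 hb),
      (m.ker _ (commutator_mem_commutator (h1 c1) (h3 hb))).2
        (k1 (commutator_mem_commutator d1 (h3 hb))), zero_add, ← inv_mul_cancel_right b b',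
      m.comm_right hk.ge (h1 ha') (h3 c2) (h3 hb'),
      (m.ker _ (commutator_mem_commutator (h1 ha') (h3 c2))).2
        (k2 (commutator_mem_commutator ha' d2)), zero_add]
  choose s1 hs1 hs1' using m1.surj
  choose s2 hs2 hs2' using m2.surj
  let β : (Fin 4 → F) →+ (Fin 4 → F) →+ (Fin 4 → F) := AddMonoidHom.mk'
    (fun x => AddMonoidHom.mk' (fun y => ρ ⁅s1 x, s2 y⁆) fun y y' => by
      rw [← m.comm_right hk.ge (h1 (hs1 x)) (h3 (hs2 y)) (h3 (hs2 y'))]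
      exact wd _ (hs1 _) _ (hs1 _) _ (hs2 _) _ (A2.mul_mem (hs2 y) (hs2 y')) rfl
        (by rw [m2.mul _ (hs2 y) _ (hs2 y'), hs2', hs2', hs2']))
    fun x x' => AddMonoidHom.ext fun y => by
      change ρ ⁅s1 (x + x'), s2 y⁆ = ρ ⁅s1 x, s2 y⁆ + ρ ⁅s1 x', s2 y⁆
      rw [← m.comm_left hk.ge (h1 (hs1 x)) (h1 (hs1 x')) (h3 (hs2 y))]
      exact wd _ (hs1 _) _ (A1.mul_mem (hs1 x) (hs1 x')) _ (hs2 _) _ (hs2 _)
        (by rw [m1.mul _ (hs1 x) _ (hs1 x'), hs1', hs1', hs1']) rfl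
  have hβ := biadd_zero S β fun g x y => by
    obtain ⟨g, rfl⟩ := hπ g
    change ρ ⁅s1 (π g • x), s2 (π g • y)⁆ = π g • ρ ⁅s1 x, s2 y⁆
    rw [m.comm_smul g (h1 (hs1 x)) (h3 (hs2 y))]
    exact wd _ (hs1 _) _ (hA1.conj_mem _ (hs1 x) g) _ (hs2 _) _ (hA2.conj_mem _ (hs2 y) g)
      (by rw [← m1.smul _ _ (hs1 x), hs1', hs1']) (by rw [← m2.smul _ _ (hs2 y), hs2', hs2'])
  refine h3' (commutator_le.2 fun a ha b hb => (m.ker _ (commutator_mem_commutator (h1 ha)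
    (h3 hb))).1 ?_)
  rw [wd a ha _ (hs1 (ρ1 a)) b hb _ (hs2 (ρ2 b)) (hs1' _).symm (hs2' _).symm]
  exact DFunLike.congr_fun (DFunLike.congr_fun hβ _) _

theorem martineau_sq {q : G} (hq : q ∈ Q) : q * q = 1 := by
  haveI hQ : Q.Normal := hk ▸ inferInstance
  letI := natAct S
  have hc := martineau_comm S hπ hk h2 hf
  have hcomm : ∀ a ∈ Q, ∀ b ∈ Q, a * b = b * a := fun a ha b hb =>
    commutatorElement_eq_one_iff_mul_comm.1 (mem_bot.1 (hc ▸ commutator_mem_commutator ha hb))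
  have hsq : ∀ a ∈ Q, ∀ b ∈ Q, a * b * (a * b) = a * a * (b * b) := fun a ha b hb => by
    rw [mul_assoc, ← mul_assoc b, hcomm b hb a ha]; simp only [mul_assoc]
  let A : Subgroup G :=
    { carrier := {x | ∃ a ∈ Q, a * a = x}
      mul_mem' := by
        rintro _ _ ⟨a, ha, rfl⟩ ⟨b, hb, rfl⟩
        exact ⟨a * b, Q.mul_mem ha hb, hsq a ha b hb⟩
      one_mem' := ⟨1, Q.one_mem, one_mul 1⟩
      inv_mem' := by
        rintro _ ⟨a, ha, rfl⟩
        exact ⟨a⁻¹, Q.inv_mem ha, by group⟩ }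
  haveI : A.Normal := ⟨by
    rintro _ ⟨a, ha, rfl⟩ g
    exact ⟨_, hQ.conj_mem a ha g, by group⟩⟩
  have hAQ : A ≤ Q := by
    rintro _ ⟨a, ha, rfl⟩
    exact Q.mul_mem ha ha
  by_contra hne
  obtain ⟨B, hB, hlt, ρ, m⟩ := exists_chief S hπ hk h2 hf hAQ fun e =>
    hne (mem_bot.1 (e ▸ ⟨q, hq, rfl⟩ : q * q ∈ ⊥))
  obtain ⟨W, _, _, ψ, m'⟩ := exists_smod π hπ (A := Q) (B := ⊥) bot_le hc.le (by rw [hk, hc])
  have inj : ∀ a ∈ Q, ∀ b ∈ Q, ψ a = ψ b → a = b := fun a ha b hb e => mul_inv_eq_one.1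
    (mem_bot.1 ((m'.ker _ (Q.mul_mem ha (Q.inv_mem hb))).1 (by
      rw [m'.mul _ ha _ (Q.inv_mem hb), m'.inv hb, e, add_neg_cancel])))
  choose s hs hs' using m'.surj
  have hA : ∀ a ∈ Q, a * a ∈ A := fun a ha => ⟨a, ha, rfl⟩
  obtain ⟨_, ⟨a, ha, rfl⟩, e⟩ := m.surj (vec 0 0)
  refine (m'.ofpf hπ hf).no_lift S
    { carrier := {w | ∃ b ∈ B, ψ b = w}
      add_mem' := by
        rintro _ _ ⟨a, ha, rfl⟩ ⟨b, hb, rfl⟩
        exact ⟨_, B.mul_mem ha hb, m'.mul _ (hAQ (hlt.le ha)) _ (hAQ (hlt.le hb))⟩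
      zero_mem' := ⟨1, B.one_mem, m'.one⟩
      neg_mem' := by
        rintro _ ⟨a, ha, rfl⟩
        exact ⟨_, B.inv_mem ha, m'.inv (hAQ (hlt.le ha))⟩ }
    (AddMonoidHom.mk' (fun w => ρ (s w * s w)) fun x y => ?_) (fun g w => ?_) (fun w => ?_) (ψ a) ?_
  · rw [inj _ (hs _) _ (Q.mul_mem (hs x) (hs y)) (by rw [m'.mul _ (hs x) _ (hs y), hs', hs', hs']),
      hsq _ (hs x) _ (hs y), m.mul _ (hA _ (hs x)) _ (hA _ (hs y))]
  · obtain ⟨g, rfl⟩ := hπ g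
    change ρ _ = π g • ρ _
    rw [m.smul _ _ (hA _ (hs w)), inj _ (hs _) _ (hQ.conj_mem _ (hs w) g)
      (by rw [← m'.smul _ _ (hs w), hs', hs'])]
    congr 1
    group
  · change (∃ b ∈ B, ψ b = w + w) ↔ ρ _ = 0
    rw [m.ker _ (hA _ (hs w))]
    have e1 : ψ (s w * s w) = w + w := by rw [m'.mul _ (hs w) _ (hs w), hs']
    exact ⟨fun ⟨b, hb, e⟩ => inj _ (hAQ (hlt.le hb)) _ (hAQ (hA _ (hs w))) (e.trans e1.symm) ▸ hb,
      fun h => ⟨_, h, e1⟩⟩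
  · change ρ _ = _
    rw [inj _ (hs _) _ ha (hs' _), e]

end H32
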